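import Mathlib
import Cfsg.Prelude.Def_Blocks
import Cfsg.Agent.Lib.Blocks.PrincipalColumn
import Cfsg.Agent.Lib.CycSylow.Reduce

/-!
# Centralizers of nonidentity elements of a cyclic Sylow subgroup

`C_G(u)` has a normal `p`-complement for `1 ≠ u ∈ P`, and the principal block sums over `G` detect the
`p`-section of `u`.
-/

set_option autoImplicit false
set_option linter.unusedSectionVars false
set_option linter.style.haveILetI false

namespace Cfsg.Agent.Lib.CycBS

open Cfsg Subgroup
open Cfsg.Agent.Lib.Blocks.Sections Cfsg.Agent.Lib.Blocks.Principal Cfsg.Agent.Lib.Blocks.PrincipalCen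
open scoped ComplexConjugate

universe u

section Arith

variable {p : ℕ} [hp : Fact p.Prime]

lemma int_dvd_sub_one {r : ℤ} {n a : ℕ} (hn : n.Coprime p) (h1 : (p : ℤ) ∣ r - 1)
    (h2 : (p : ℤ) ^ a ∣ r ^ n - 1) : (p : ℤ) ^ a ∣ r - 1 := by
  have hg : (∑ i ∈ Finset.range n, r ^ i) * (r - 1) = r ^ n - 1 := geom_sum_mul r n
  have hr : (r : ZMod p) = 1 := by
    have := (ZMod.intCast_zmod_eq_zero_iff_dvd (r - 1) p).2 (by exact_mod_cast h1)
    push_cast at this
    exact sub_eq_zero.mp this
  have hs : ((∑ i ∈ Finset.range n, r ^ i : ℤ) : ZMod p) = (n : ZMod p) := by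
    push_cast
    simp [hr]
  have hcopP : IsCoprime (p : ℤ) (∑ i ∈ Finset.range n, r ^ i) := by
    have hprime : Prime (p : ℤ) := Nat.prime_iff_prime_int.mp hp.out
    refine (Prime.coprime_iff_not_dvd hprime).2 fun hd => ?_
    have h0 : ((∑ i ∈ Finset.range n, r ^ i : ℤ) : ZMod p) = 0 :=
      (ZMod.intCast_zmod_eq_zero_iff_dvd _ p).2 (by exact_mod_cast hd)
    rw [hs] at h0
    have h3 : p ∣ n := (ZMod.natCast_eq_zero_iff n p).1 h0
    have h4 := Nat.Coprime.eq_one_of_dvd hn.symm h3
    exact hp.out.one_lt.ne' h4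
  have hcop : IsCoprime ((p : ℤ) ^ a) (∑ i ∈ Finset.range n, r ^ i) := hcopP.pow_left
  apply hcop.dvd_of_dvd_mul_left
  rw [hg]
  exact h2

end Arith

section Aut

variable {G : Type u} [Group G] [Finite G] {p : ℕ} [hp : Fact p.Prime]

/-- A `p'`-element normalizing a cyclic `p`-group and centralizing a nonidentity element of it centralizes it. -/
theorem centralizes_of_coprime {P : Subgroup G} (hc : IsCyclic P) {a : ℕ} (hcard : Nat.card P = p ^ a)
    {y u : G} (hyN : y ∈ normalizer (P : Set G)) (hy : (orderOf y).Coprime p) (huP : u ∈ P) (hu1 : u ≠ 1)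
    (hyu : y * u = u * y) : y ∈ centralizer (P : Set G) := by
  classical
  obtain ⟨⟨g, hgP⟩, hg⟩ := hc.exists_generator
  have hog : orderOf g = p ^ a := by
    have h1 := orderOf_eq_card_of_forall_mem_zpowers hg
    rw [hcard, Subgroup.orderOf_mk] at h1
    exact h1
  have hmem : ∀ h ∈ P, ∃ k : ℤ, g ^ k = h := by
    intro h hh
    obtain ⟨k, hk⟩ := Subgroup.mem_zpowers_iff.1 (hg ⟨h, hh⟩)
    refine ⟨k, ?_⟩
    have := congrArg Subtype.val hk
    simpa using this
  obtain ⟨r, hr⟩ := hmem (y * g * y⁻¹) ((Subgroup.mem_normalizer_iff.1 hyN g).1 hgP)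
  have hconj : ∀ k : ℤ, y * g ^ k * y⁻¹ = g ^ (r * k) := by
    intro k
    have h1 : y * g ^ k * y⁻¹ = (y * g * y⁻¹) ^ k := by
      have := map_zpow (MulAut.conj y).toMonoidHom g k
      simpa [MulAut.conj_apply] using this
    rw [h1, ← hr, ← zpow_mul]
  have hpow : ∀ i : ℕ, y ^ i * g * (y ^ i)⁻¹ = g ^ (r ^ i) := by
    intro i
    induction i with
    | zero => simp
    | succ i ih =>
      have h1 : y ^ (i + 1) * g * (y ^ (i + 1))⁻¹ = y * (y ^ i * g * (y ^ i)⁻¹) * y⁻¹ := by
        rw [pow_succ']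
        group
      rw [h1, ih, hconj, pow_succ']
  obtain ⟨m, hm⟩ := hmem u huP
  have hdm : ¬ (p : ℤ) ^ a ∣ m := by
    intro h
    apply hu1
    rw [← hm]
    apply (orderOf_dvd_iff_zpow_eq_one).1
    rw [hog]
    exact_mod_cast h
  have h1 : (p : ℤ) ^ a ∣ m * (r - 1) := by
    have h2 : y * g ^ m * y⁻¹ = g ^ m := by
      rw [hm, hyu]
      group
    rw [hconj] at h2
    have h3 : g ^ (r * m - m) = 1 := by
      rw [zpow_sub, h2]
      group
    have h4 := (orderOf_dvd_iff_zpow_eq_one).2 h3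
    rw [hog] at h4
    have h5 : m * (r - 1) = r * m - m := by ring
    rw [h5]
    exact_mod_cast h4
  have hp1 : (p : ℤ) ∣ r - 1 := by
    by_contra hn
    have hprime : Prime (p : ℤ) := Nat.prime_iff_prime_int.mp hp.out
    have hcop : IsCoprime (p : ℤ) (r - 1) := (Prime.coprime_iff_not_dvd hprime).2 hn
    exact hdm (hcop.pow_left.dvd_of_dvd_mul_right h1)
  have h2 : (p : ℤ) ^ a ∣ r ^ orderOf y - 1 := by
    have h3 := hpow (orderOf y)
    rw [pow_orderOf_eq_one] at h3
    simp only [one_mul, inv_one, mul_one] at h3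
    have h4 : g ^ (r ^ orderOf y - 1) = 1 := by
      rw [zpow_sub, ← h3]
      group
    have h5 := (orderOf_dvd_iff_zpow_eq_one).2 h4
    rw [hog] at h5
    exact_mod_cast h5
  have h3 := int_dvd_sub_one hy hp1 h2
  have h4 : g ^ (r - 1) = 1 := by
    apply (orderOf_dvd_iff_zpow_eq_one).1
    rw [hog]
    exact_mod_cast h3
  have h5 : y * g * y⁻¹ = g := by
    rw [← hr]
    have : r = (r - 1) + 1 := by ring
    rw [this, zpow_add, h4]
    simp
  rw [mem_centralizer_iff]
  intro h hh
  obtain ⟨k, rfl⟩ := hmem h hh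
  have h6 : y * g ^ k * y⁻¹ = g ^ k := by
    have h7 : y * g ^ k * y⁻¹ = (y * g * y⁻¹) ^ k := by
      have := map_zpow (MulAut.conj y).toMonoidHom g k
      simpa [MulAut.conj_apply] using this
    rw [h7, h5]
  calc g ^ k * y = (y * g ^ k * y⁻¹) * y := by rw [h6]
    _ = y * g ^ k := by group

/-- A Sylow subgroup which is cyclic centralizes each of its elements. -/
lemma sylow_le_cen (P : Sylow p G) (hc : IsCyclic (P : Subgroup G)) {u : G} (huP : u ∈ (P : Subgroup G)) :
    (P : Subgroup G) ≤ centralizer ({u} : Set G) := by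
  intro h hh
  rw [mem_centralizer_iff]
  intro v hv
  rw [Set.mem_singleton_iff] at hv
  subst hv
  have := (IsCyclic.commGroup (α := (P : Subgroup G))).mul_comm ⟨v, huP⟩ ⟨h, hh⟩
  exact congrArg Subtype.val this

/-- The centralizer of a nonidentity element of a cyclic Sylow subgroup has a normal `p`-complement. -/
theorem hasNormalPComplement_cen (P : Sylow p G) (hc : IsCyclic (P : Subgroup G)) {u : G}
    (huP : u ∈ (P : Subgroup G)) (hu1 : u ≠ 1) :
    Cfsg.HasNormalPComplement p (centralizer ({u} : Set G)) := by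
  classical
  set H := centralizer ({u} : Set G) with hH
  have hPH : (P : Subgroup G) ≤ H := sylow_le_cen P hc huP
  let S : Sylow p H := P.subtype hPH
  have hScoe : (S : Subgroup H) = (P : Subgroup G).subgroupOf H := Sylow.coe_subtype _ _
  have hcS : IsCyclic S := by
    show IsCyclic (S : Subgroup H)
    rw [hScoe]
    exact isCyclic_of_surjective (Subgroup.subgroupOfEquivOfLe hPH).symm
      (Subgroup.subgroupOfEquivOfLe hPH).symm.surjective
  refine Cfsg.Agent.Lib.CycSylow.hasComplement_of_normalizer_le S ?_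
  by_contra hn
  obtain ⟨y, hyN, hyc, hyn⟩ := Cfsg.Agent.Lib.CycSylow.exists_coprime_not_mem S hcS hn
  apply hyn
  obtain ⟨a, ha⟩ := IsPGroup.iff_card.mp P.isPGroup'
  have hyN' : (y : G) ∈ normalizer ((P : Subgroup G) : Set G) := by
    rw [Subgroup.mem_normalizer_iff]
    intro h
    have hall := Subgroup.mem_normalizer_iff.1 hyN
    constructor
    · intro hh
      have h1 : (⟨h, hPH hh⟩ : H) ∈ (S : Subgroup H) := by
        rw [hScoe]; exact Subgroup.mem_subgroupOf.2 hh
      have h2 := (hall _).1 h1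
      rw [hScoe] at h2
      simpa using Subgroup.mem_subgroupOf.1 h2
    · intro hh
      have hyH : (y : G) ∈ H := y.2
      have hhH : h ∈ H := by
        have h1 := H.mul_mem (H.mul_mem (H.inv_mem hyH) (hPH hh)) hyH
        have h2 : (y : G)⁻¹ * ((y : G) * h * (y : G)⁻¹) * y = h := by group
        rwa [h2] at h1
      have h2 := (hall ⟨h, hhH⟩).2 (by
        rw [hScoe]
        exact Subgroup.mem_subgroupOf.2 (by simpa using hh))
      rw [hScoe] at h2
      simpa using Subgroup.mem_subgroupOf.1 h2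
  have hyu : (y : G) * u = u * y := by
    have := mem_centralizer_iff.1 y.2 u (Set.mem_singleton u)
    exact this.symm
  have hyco : (orderOf (y : G)).Coprime p := by
    rw [Subgroup.orderOf_coe]; exact hyc
  have h1 := centralizes_of_coprime hc ha hyN' hyco huP hu1 hyu
  rw [mem_centralizer_iff] at h1 ⊢
  intro h hh
  have hh' : (h : G) ∈ (P : Subgroup G) := by
    have h2 : h ∈ (S : Subgroup H) := hh
    rw [hScoe] at h2
    exact Subgroup.mem_subgroupOf.1 h2
  exact Subtype.ext (h1 _ hh')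

/-- The index of the `p'`-core in the centralizer. -/
theorem index_core_cen (P : Sylow p G) (hc : IsCyclic (P : Subgroup G)) {u : G}
    (huP : u ∈ (P : Subgroup G)) (hu1 : u ≠ 1) :
    IsPGroup p (centralizer ({u} : Set G) ⧸ pPrimeCore p (centralizer ({u} : Set G))) ∧
    (pPrimeCore p (centralizer ({u} : Set G))).index = Nat.card P := by
  classical
  set H := centralizer ({u} : Set G) with hH
  have hPH : (P : Subgroup G) ≤ H := sylow_le_cen P hc huP
  obtain ⟨N, hn, h1, h2⟩ :=
    Cfsg.Agent.Lib.Transfer.Basic.hasNormalPComplement_iff.mp (hasNormalPComplement_cen P hc huP hu1)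
  have hle : N ≤ pPrimeCore p H := Cfsg.Agent.Lib.Basic.PCore.le_pPrimeCore hn h1
  have hcop : (Nat.card (pPrimeCore p H)).Coprime p :=
    Cfsg.Agent.Lib.Solvable.Carter.card_pPrimeCore_coprime p
  have hq : IsPGroup p (H ⧸ pPrimeCore p H) := by
    obtain ⟨k, hk⟩ := IsPGroup.iff_card.mp h2
    have h3 : (pPrimeCore p H).index ∣ N.index := Subgroup.index_dvd_of_le hle
    have h4 : N.index = p ^ k := by rw [Subgroup.index_eq_card]; exact hk
    rw [h4] at h3
    obtain ⟨j, -, hj⟩ := (Nat.dvd_prime_pow hp.out).1 h3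
    refine IsPGroup.of_card (n := j) ?_
    rw [← Subgroup.index_eq_card]
    exact hj
  refine ⟨hq, ?_⟩
  let S : Sylow p H := P.subtype hPH
  have hS : Nat.card S = Nat.card P := by
    show Nat.card (S : Subgroup H) = _
    rw [show (S : Subgroup H) = (P : Subgroup G).subgroupOf H from Sylow.coe_subtype _ _]
    exact Nat.card_congr (Subgroup.subgroupOfEquivOfLe hPH).toEquiv
  have := Cfsg.Agent.Lib.Transfer.Basic.isComplement'_of_coprime_of_isPGroup S hcop hq
  rw [this.symm.index_eq_card]
  exact hS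

end Aut

section Sum

variable {G : Type u} [Group G] [Fintype G] {M : Ideal AlgInt} [hMp : M.IsPrime] {p : ℕ} [hp : Fact p.Prime]

/-- The order of a `p`-element of a Sylow subgroup. -/
lemma exists_order_of_mem (P : Sylow p G) {u : G} (huP : u ∈ (P : Subgroup G)) : ∃ k : ℕ, orderOf u = p ^ k := by
  obtain ⟨k, hk⟩ := (IsPGroup.iff_orderOf.1 P.isPGroup') ⟨u, huP⟩
  exact ⟨k, by simpa using hk⟩

open Classical in
/-- **The section sum.**  For `1 ≠ u ∈ P`, the class function `∑_{χ ∈ B₀} conj (χ u) χ` is `|P|` on the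
`p`-section of `u` and zero elsewhere. -/
theorem section_sum (hM : IsPModular p M) (P : Sylow p G) (hc : IsCyclic (P : Subgroup G)) {u : G}
    (huP : u ∈ (P : Subgroup G)) (hu1 : u ≠ 1) {g v : G} (hgv : IsPPart p g v) :
    ∑ χ ∈ Finset.univ.filter (· ∈ principalBlock M G), (χ : G → ℂ) g * conj ((χ : G → ℂ) u) =
      if IsConj v u then (Nat.card P : ℂ) else 0 := by
  obtain ⟨k, hk⟩ := exists_order_of_mem P huP
  split_ifs with hconj
  · obtain ⟨w, hvw, hcomm, -, hw⟩ := hgv
    obtain ⟨c, hc'⟩ := isConj_iff.1 hconj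
    -- `c v c⁻¹ = u`
    set z : G := c * w * c⁻¹ with hz
    have hzu : z ∈ centralizer ({u} : Set G) := by
      rw [mem_centralizer_iff]
      intro t ht
      rw [Set.mem_singleton_iff] at ht
      subst ht
      rw [← hc', hz]
      have := hcomm.eq
      calc c * v * c⁻¹ * (c * w * c⁻¹) = c * (v * w) * c⁻¹ := by group
        _ = c * (w * v) * c⁻¹ := by rw [this]
        _ = c * w * c⁻¹ * (c * v * c⁻¹) := by group
    letI : Fintype (centralizer ({u} : Set G)) := Fintype.ofFinite _
    have hordz : orderOf z = orderOf w := Cfsg.Agent.Lib.Transfer.Basic.orderOf_conj_eq c w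
    obtain ⟨hq, hidx⟩ := index_core_cen P hc huP hu1
    have hcop : (Nat.card (pPrimeCore p (centralizer ({u} : Set G)))).Coprime p :=
      Cfsg.Agent.Lib.Solvable.Carter.card_pPrimeCore_coprime p
    have hzcore : (⟨z, hzu⟩ : centralizer ({u} : Set G)) ∈ pPrimeCore p (centralizer ({u} : Set G)) := by
      rw [Cfsg.Agent.Lib.Transfer.Basic.mem_iff_coprime_of_normal _ hcop hq, Subgroup.orderOf_mk, hordz,
        Nat.coprime_comm, Nat.Prime.coprime_iff_not_dvd hp.out]
      exact hw
    have hval : ∀ χ ∈ Finset.univ.filter (· ∈ principalBlock M G), (χ : G → ℂ) g = (χ : G → ℂ) u := by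
      intro χ hχ
      have h1 := apply_mul_core hM hk hzcore (Finset.mem_filter.1 hχ).2
      have h2 : (χ : G → ℂ) g = (χ : G → ℂ) (u * z) := by
        have h3 : u * z = c * g * c⁻¹ := by
          rw [← hc', ← hvw, hz]
          group
        rw [h3]
        have := Cfsg.Agent.Lib.Char.CompleteCor.irr_apply_of_isConj (χ := χ)
          (isConj_iff.2 ⟨c, rfl⟩ : IsConj g (c * g * c⁻¹))
        exact this
      rw [h2]
      exact h1
    rw [Finset.sum_congr rfl fun χ hχ => by rw [hval χ hχ]]
    have h3 := sum_principal_eq hM hk (1 : centralizer ({u} : Set G)) (by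
      rw [orderOf_one]
      exact hp.out.one_lt.ne' ∘ Nat.dvd_one.mp)
    simp only [OneMemClass.coe_one, mul_one] at h3
    rw [h3]
    obtain ⟨j, hj⟩ := IsPGroup.iff_card.mp P.isPGroup'
    have hidx' : (pPrimeCore p (centralizer ({u} : Set G))).index = p ^ j := by
      rw [hidx]; exact hj
    have h4 := sum_principal_eq_index (G := centralizer ({u} : Set G)) (M := M) hM hidx'
      (y := 1) (by
        rw [orderOf_one]
        exact hp.out.one_lt.ne' ∘ Nat.dvd_one.mp)
    rw [h4]
    have : Nat.card P = p ^ j := hj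
    rw [this]
  · have hoP : ∃ k, orderOf u = p ^ k := ⟨k, hk⟩
    have h := block_orthogonality hM hgv (Cfsg.Agent.Lib.Blocks.PrincipalColumn.isPPart_self hk) hconj
      (isPBlock_principalBlock M)
    rw [Cfsg.Agent.Lib.Blocks.Osima.finsum_mem_eq_sum_filter] at h
    rw [← h]
    refine Finset.sum_congr rfl fun χ _ => ?_
    rw [Cfsg.Agent.Lib.Char.Complete.isIrr_inv χ.2]

end Sum

end Cfsg.Agent.Lib.CycBS
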