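import Mathlib
import Cfsg.Prelude.Def_Blocks
import Cfsg.Prelude.Def_Local
import Cfsg.Agent.Lib.CycSylow.Basic
import Cfsg.Agent.Lib.Coprime.PSolvable
import Cfsg.Agent.Lib.Solvable.PSeries
import Cfsg.Agent.Lib.Solvable.Carter
import Cfsg.Agent.Lib.Basic.PCore
import Cfsg.Agent.Lib.Basic.SylowUtil

/-!
# Two elements of order `p` generating a `p`-solvable group with cyclic Sylow subgroups

If `x, s` have order `p`, the Sylow `p`-subgroups of `G` are cyclic and `H = ⟨x, s⟩` is `p`-solvable, then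
`H = O_{p'}(H) ⟨x⟩`.  Consequently there is `a₀ ∈ ⟨x⟩` such that the `p`-part of `a⁻¹ s` is conjugate to
`a⁻¹ a₀`, for each `a ∈ ⟨x⟩`.
-/

set_option autoImplicit false
set_option linter.unusedSectionVars false
set_option linter.style.haveILetI false

namespace Cfsg.Agent.Lib.CycBS

open Cfsg Subgroup

universe u

section Quot

variable {H : Type u} [Group H] [Finite H] {p : ℕ} [hp : Fact p.Prime]

lemma not_mem_core_of_order {x : H} (hx : orderOf x = p) : x ∉ pPrimeCore p H := by
  intro h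
  have hcop : (Nat.card (pPrimeCore p H)).Coprime p :=
    Cfsg.Agent.Lib.Solvable.Carter.card_pPrimeCore_coprime p
  have h1 : orderOf x ∣ Nat.card (pPrimeCore p H) := by
    have := orderOf_dvd_natCard (⟨x, h⟩ : pPrimeCore p H)
    simpa using this
  rw [hx] at h1
  have := Nat.Coprime.eq_one_of_dvd hcop.symm h1
  exact hp.out.one_lt.ne' this

lemma eq_one_of_mem_core_of_order {y : H} {k : ℕ} (hy : orderOf y = p ^ k) (h : y ∈ pPrimeCore p H) : y = 1 := by
  have hcop : (Nat.card (pPrimeCore p H)).Coprime p :=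
    Cfsg.Agent.Lib.Solvable.Carter.card_pPrimeCore_coprime p
  have h1 : orderOf y ∣ Nat.card (pPrimeCore p H) := by
    have := orderOf_dvd_natCard (⟨y, h⟩ : pPrimeCore p H)
    simpa using this
  rw [hy] at h1
  have h2 : (p ^ k).Coprime (Nat.card (pPrimeCore p H)) := Nat.Coprime.pow_left k hcop.symm
  have h3 := Nat.Coprime.eq_one_of_dvd h2 h1
  rw [← hy] at h3
  exact orderOf_eq_one_iff.1 h3

/-- In the quotient by the `p'`-core, everything is a power of the image of `x`. -/
theorem quot_eq_zpowers (hcyc : ∀ P : Sylow p H, IsCyclic P) (hsol : IsPSolvable p H) {x s : H}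
    (hx : orderOf x = p) (hs : orderOf s = p) (hgen : closure ({x, s} : Set H) = ⊤) :
    ∀ q : H ⧸ pPrimeCore p H, q ∈ zpowers (QuotientGroup.mk x : H ⧸ pPrimeCore p H) := by
  classical
  set K := pPrimeCore p H with hK
  let f := QuotientGroup.mk' K
  have hfsurj : Function.Surjective f := QuotientGroup.mk'_surjective K
  have hcore : pPrimeCore p (H ⧸ K) = ⊥ := Cfsg.Agent.Lib.Solvable.PSeries.pPrimeCore_quotient p
  have hx1 : (QuotientGroup.mk x : H ⧸ K) ≠ 1 := by
    rw [Ne, QuotientGroup.eq_one_iff]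
    exact not_mem_core_of_order hx
  have hnt : Nontrivial (H ⧸ K) := ⟨⟨_, _, hx1⟩⟩
  obtain ⟨N, hNn, hN1, hNg⟩ := Cfsg.Agent.Lib.Coprime.PSolvable.exists_normal_good
    (Cfsg.Agent.Lib.Coprime.PSolvable.isPSolvable_quotient hp.out K hsol) hnt
  have hNp : IsPGroup p N := by
    rcases hNg with ⟨m, hm⟩ | hcop
    · exact IsPGroup.of_card hm
    · exfalso
      apply hN1
      have := Cfsg.Agent.Lib.Basic.PCore.le_pPrimeCore hNn hcop
      rw [hcore] at this
      exact le_bot_iff.1 this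
  -- an element of order `p` in `N`
  obtain ⟨⟨n, hnN⟩, hn1'⟩ := Subgroup.ne_bot_iff_exists_ne_one.1 hN1
  have hn1 : n ≠ 1 := fun h => hn1' (Subtype.ext h)
  obtain ⟨kn, hkn⟩ := (IsPGroup.iff_orderOf.1 hNp) ⟨n, hnN⟩
  have hkn' : orderOf n = p ^ kn := by simpa using hkn
  obtain ⟨w, hwn, hw⟩ := Cfsg.Agent.Lib.CycSylow.exists_pow_order_p hn1 hkn'
  have hwN : w ∈ N := (zpowers_le.2 hnN) hwn
  -- Sylow subgroups of the quotient are cyclic
  have hcycQ : ∀ T : Sylow p (H ⧸ K), IsCyclic T := by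
    intro T
    obtain ⟨P, rfl⟩ := Sylow.mapSurjective_surjective (QuotientGroup.mk'_surjective K) p T
    haveI := hcyc P
    have hsur : Function.Surjective ((QuotientGroup.mk' K).subgroupMap (P : Subgroup H)) :=
      MonoidHom.subgroupMap_surjective _ _
    exact isCyclic_of_surjective _ hsur
  -- every element of order `p` is a power of `w`
  have key : ∀ y : H ⧸ K, orderOf y = p → y ∈ zpowers w := by
    intro y hy
    have hpy : IsPGroup p (zpowers y) := by
      rw [IsPGroup.iff_card, Nat.card_zpowers, hy]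
      exact ⟨1, (pow_one p).symm⟩
    obtain ⟨T, hT⟩ := hpy.exists_le_sylow
    have hNT : N ≤ (T : Subgroup (H ⧸ K)) := by
      have h2 := T.isPGroup'.to_sup_of_normal_right hNp
      have h3 := T.is_maximal' h2 le_sup_left
      rw [← h3]
      exact le_sup_right
    exact Cfsg.Agent.Lib.CycSylow.mem_zpowers_of_order_p (hcycQ T) (hNT hwN) (hT (mem_zpowers y)) hw hy
  have himg : ∀ y : H, orderOf y = p → (QuotientGroup.mk y : H ⧸ K) ∈ zpowers w := by
    intro y hy
    by_cases h1 : (QuotientGroup.mk y : H ⧸ K) = 1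
    · rw [h1]; exact one_mem _
    · apply key
      have h2 : orderOf (QuotientGroup.mk y : H ⧸ K) ∣ p := by
        have h3 : orderOf (QuotientGroup.mk y : H ⧸ K) ∣ orderOf y := orderOf_map_dvd (QuotientGroup.mk' K) y
        rwa [hy] at h3
      exact ((Nat.dvd_prime hp.out).1 h2).resolve_left (fun h => h1 (orderOf_eq_one_iff.1 h))
  have hall : ∀ y : H, (QuotientGroup.mk y : H ⧸ K) ∈ zpowers w := by
    intro y
    have hy : y ∈ closure ({x, s} : Set H) := by rw [hgen]; exact mem_top y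
    induction hy using closure_induction with
    | mem y hy =>
      rcases hy with rfl | hy
      · exact himg _ hx
      · rw [Set.mem_singleton_iff] at hy
        subst hy
        exact himg _ hs
    | one => exact one_mem _
    | mul a b _ _ ha hb => exact mul_mem ha hb
    | inv a _ ha => exact inv_mem ha
  intro q
  obtain ⟨y, rfl⟩ := QuotientGroup.mk_surjective q
  have hxw := himg x hx
  have hordx : orderOf (QuotientGroup.mk x : H ⧸ K) = p := by
    have h2 : orderOf (QuotientGroup.mk x : H ⧸ K) ∣ p := by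
      have h3 : orderOf (QuotientGroup.mk x : H ⧸ K) ∣ orderOf x := orderOf_map_dvd (QuotientGroup.mk' K) x
      rwa [hx] at h3
    exact ((Nat.dvd_prime hp.out).1 h2).resolve_left (fun h => hx1 (orderOf_eq_one_iff.1 h))
  have heq : zpowers (QuotientGroup.mk x : H ⧸ K) = zpowers w := by
    apply Subgroup.eq_of_le_of_card_ge (zpowers_le.2 hxw)
    rw [Nat.card_zpowers, Nat.card_zpowers, hordx, hw]
  rw [heq]
  exact hall y

end Quot

section Pair

variable {G : Type u} [Group G] [Finite G] {p : ℕ} [hp : Fact p.Prime]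

/-- The parts of a product of commuting elements of coprime orders are powers of the product. -/
lemma parts_mem_zpowers {v w : G} (hc : Commute v w) (hco : (orderOf v).Coprime (orderOf w)) :
    v ∈ zpowers (v * w) ∧ w ∈ zpowers (v * w) := by
  have hcop : IsCoprime (orderOf v : ℤ) (orderOf w : ℤ) := Nat.isCoprime_iff_coprime.2 hco
  obtain ⟨α, β, hab⟩ := hcop
  have hv : (v * w) ^ (β * (orderOf w : ℤ)) = v := by
    rw [hc.mul_zpow, mul_comm β, zpow_mul w, zpow_natCast, pow_orderOf_eq_one, one_zpow, mul_one]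
    have : β * (orderOf w : ℤ) = 1 - α * (orderOf v : ℤ) := by linarith
    rw [mul_comm (orderOf w : ℤ), this, zpow_sub, zpow_one, mul_comm α, zpow_mul, zpow_natCast,
      pow_orderOf_eq_one, one_zpow]
    simp
  have hw : (v * w) ^ (α * (orderOf v : ℤ)) = w := by
    rw [hc.mul_zpow, mul_comm α, zpow_mul v, zpow_natCast, pow_orderOf_eq_one, one_zpow, one_mul]
    have : α * (orderOf v : ℤ) = 1 - β * (orderOf w : ℤ) := by linarith
    rw [mul_comm (orderOf v : ℤ), this, zpow_sub, zpow_one, mul_comm β, zpow_mul, zpow_natCast,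
      pow_orderOf_eq_one, one_zpow]
    simp
  exact ⟨⟨_, hv⟩, ⟨_, hw⟩⟩

/-- Sylow subgroups of a subgroup are cyclic. -/
lemma cyc_sub (hcyc : ∀ P : Sylow p G, IsCyclic P) (M : Subgroup G) (Q : Sylow p M) : IsCyclic Q := by
  obtain ⟨P, hP⟩ := Cfsg.Agent.Lib.Basic.SylowUtil.exists_sylow_ge_map (p := p) Q
  haveI := hcyc P
  let φ : (Q : Subgroup M) →* (P : Subgroup G) :=
    { toFun := fun x => ⟨x.1.1, hP ⟨x.1, x.2, rfl⟩⟩
      map_one' := rfl
      map_mul' := fun _ _ => rfl }
  have hφ : Function.Injective φ := by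
    intro a b hab
    apply Subtype.ext
    apply Subtype.ext
    have hab' := congrArg Subtype.val hab
    exact hab'
  exact isCyclic_of_injective φ hφ

/-- **The pair lemma.** -/
theorem pair_structure (hcyc : ∀ P : Sylow p G, IsCyclic P) {x s : G} (hx : orderOf x = p) (hs : orderOf s = p)
    (hsol : IsPSolvable p (closure ({x, s} : Set G))) :
    ∃ a₀ ∈ zpowers x, ∀ a ∈ zpowers x, ∀ v, IsPPart p (a⁻¹ * s) v → IsConj v (a⁻¹ * a₀) := by
  classical
  set H := closure ({x, s} : Set G) with hH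
  have hxH : x ∈ H := subset_closure (Set.mem_insert _ _)
  have hsH : s ∈ H := subset_closure (Set.mem_insert_of_mem _ (Set.mem_singleton _))
  let x' : H := ⟨x, hxH⟩
  let s' : H := ⟨s, hsH⟩
  have hx' : orderOf x' = p := by rw [Subgroup.orderOf_mk, hx]
  have hs' : orderOf s' = p := by rw [Subgroup.orderOf_mk, hs]
  have hgen : closure ({x', s'} : Set H) = ⊤ := by
    have h1 := Subgroup.closure_closure_coe_preimage (k := ({x, s} : Set G))
    have h2 : ((↑) : closure ({x, s} : Set G) → G) ⁻¹' ({x, s} : Set G) = ({x', s'} : Set H) := by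
      ext y
      simp only [Set.mem_preimage, Set.mem_insert_iff, Set.mem_singleton_iff]
      constructor
      · rintro (h | h)
        · exact Or.inl (Subtype.ext h)
        · exact Or.inr (Subtype.ext h)
      · rintro (h | h)
        · exact Or.inl (congrArg Subtype.val h)
        · exact Or.inr (congrArg Subtype.val h)
    rw [h2] at h1
    exact h1
  have hcycH : ∀ Q : Sylow p H, IsCyclic Q := cyc_sub hcyc H
  set K := pPrimeCore p H with hK
  have hQ := quot_eq_zpowers hcycH hsol hx' hs' hgen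
  have hpow : ∀ y : H, ∃ i : ℤ, (QuotientGroup.mk y : H ⧸ K) = QuotientGroup.mk (x' ^ i) := by
    intro y
    obtain ⟨i, hi⟩ := Subgroup.mem_zpowers_iff.1 (hQ (QuotientGroup.mk y))
    refine ⟨i, ?_⟩
    rw [← hi]
    rfl
  have hcomm : ∀ a b : H ⧸ K, a * b = b * a := by
    intro a b
    obtain ⟨i, hi⟩ := Subgroup.mem_zpowers_iff.1 (hQ a)
    obtain ⟨j, hj⟩ := Subgroup.mem_zpowers_iff.1 (hQ b)
    rw [← hi, ← hj, ← zpow_add, ← zpow_add, add_comm]
  obtain ⟨i₀, hi₀⟩ := hpow s'
  refine ⟨x ^ i₀, Subgroup.zpow_mem _ (mem_zpowers x) _, ?_⟩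
  intro a ha v hv
  obtain ⟨i, rfl⟩ := Subgroup.mem_zpowers_iff.1 ha
  obtain ⟨w, hvw, hcomm', ⟨k, hk⟩, hw⟩ := hv
  have hco : (orderOf v).Coprime (orderOf w) := by
    rw [hk]
    exact Nat.Coprime.pow_left k ((Nat.Prime.coprime_iff_not_dvd hp.out).2 hw)
  obtain ⟨hvz, hwz⟩ := parts_mem_zpowers hcomm' hco
  rw [hvw] at hvz hwz
  have hgH : (x ^ i)⁻¹ * s ∈ H := H.mul_mem (H.inv_mem (H.zpow_mem hxH i)) hsH
  have hvH : v ∈ H := (zpowers_le.2 hgH) hvz
  have hwH : w ∈ H := (zpowers_le.2 hgH) hwz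
  let v' : H := ⟨v, hvH⟩
  let w' : H := ⟨w, hwH⟩
  -- `w'` has trivial image
  have hw1 : (QuotientGroup.mk w' : H ⧸ K) = 1 := by
    by_contra hne
    have h1 : orderOf (QuotientGroup.mk w' : H ⧸ K) ∣ orderOf w' := orderOf_map_dvd (QuotientGroup.mk' K) w'
    -- the quotient has exponent `p`
    have h2 : (QuotientGroup.mk w' : H ⧸ K) ^ p = 1 := by
      obtain ⟨j, hj⟩ := Subgroup.mem_zpowers_iff.1 (hQ (QuotientGroup.mk w'))
      rw [← hj, ← zpow_natCast, ← zpow_mul, mul_comm, zpow_mul, zpow_natCast]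
      have : (QuotientGroup.mk x' : H ⧸ K) ^ p = 1 := by
        have h5 : x' ^ p = 1 := by
          have h6 := pow_orderOf_eq_one x'
          rwa [hx'] at h6
        rw [← QuotientGroup.mk_pow, h5]
        rfl
      rw [this, one_zpow]
    have h3 : orderOf (QuotientGroup.mk w' : H ⧸ K) ∣ p := orderOf_dvd_of_pow_eq_one h2
    have h4 := ((Nat.dvd_prime hp.out).1 h3).resolve_left (fun h => hne (orderOf_eq_one_iff.1 h))
    rw [h4, Subgroup.orderOf_mk] at h1
    exact hw h1
  -- the image of `v'`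
  have hgv : ((x' ^ i)⁻¹ * s' : H) = v' * w' := Subtype.ext (by
    show (x ^ i)⁻¹ * s = v * w
    rw [hvw])
  have hv' : (QuotientGroup.mk v' : H ⧸ K) = QuotientGroup.mk ((x' ^ i)⁻¹ * x' ^ i₀) := by
    have h1 : (QuotientGroup.mk ((x' ^ i)⁻¹ * s') : H ⧸ K) = QuotientGroup.mk (v' * w') := by rw [hgv]
    rw [QuotientGroup.mk_mul, QuotientGroup.mk_mul, hw1, mul_one, hi₀] at h1
    rw [← h1, QuotientGroup.mk_mul]
  -- Sylow subgroups
  have hpz : IsPGroup p (zpowers x') := by
    rw [IsPGroup.iff_card, Nat.card_zpowers, hx']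
    exact ⟨1, (pow_one p).symm⟩
  have hpv : IsPGroup p (zpowers v') := by
    rw [IsPGroup.iff_card, Nat.card_zpowers, Subgroup.orderOf_mk]
    exact ⟨k, hk⟩
  obtain ⟨T', hT'⟩ := hpz.exists_le_sylow
  obtain ⟨T, hT⟩ := hpv.exists_le_sylow
  obtain ⟨h, hh⟩ := MulAction.exists_smul_eq H T T'
  have hvT' : h * v' * h⁻¹ ∈ (T' : Subgroup H) := by
    rw [← hh, Sylow.coe_subgroup_smul]
    exact Subgroup.smul_mem_pointwise_smul v' (MulAut.conj h) _ (hT (mem_zpowers v'))
  have haT' : (x' ^ i)⁻¹ * x' ^ i₀ ∈ (T' : Subgroup H) :=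
    (T' : Subgroup H).mul_mem ((T' : Subgroup H).inv_mem (hT' (Subgroup.zpow_mem _ (mem_zpowers x') i)))
      (hT' (Subgroup.zpow_mem _ (mem_zpowers x') i₀))
  set z := h * v' * h⁻¹ with hz
  set a' := (x' ^ i)⁻¹ * x' ^ i₀ with ha'
  have hfz : (QuotientGroup.mk z : H ⧸ K) = QuotientGroup.mk a' := by
    rw [hz, QuotientGroup.mk_mul, QuotientGroup.mk_mul, hv', QuotientGroup.mk_inv,
      hcomm (QuotientGroup.mk h) _, mul_assoc, mul_inv_cancel, mul_one]
  have hmem : z * a'⁻¹ ∈ K := by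
    have h1 : (QuotientGroup.mk (z * a'⁻¹) : H ⧸ K) = 1 := by
      rw [QuotientGroup.mk_mul, QuotientGroup.mk_inv, hfz, mul_inv_cancel]
    exact (QuotientGroup.eq_one_iff _).1 h1
  have hmemT : z * a'⁻¹ ∈ (T' : Subgroup H) := (T' : Subgroup H).mul_mem hvT' ((T' : Subgroup H).inv_mem haT')
  obtain ⟨m, hm⟩ := (IsPGroup.iff_orderOf.1 T'.isPGroup') ⟨_, hmemT⟩
  have hm' : orderOf (z * a'⁻¹) = p ^ m := by simpa using hm
  have h1 := eq_one_of_mem_core_of_order hm' hmem
  have hza : z = a' := mul_inv_eq_one.1 h1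
  refine isConj_iff.2 ⟨(h : G), ?_⟩
  have h2 := congrArg Subtype.val hza
  simpa [hz, ha', x', v'] using h2

end Pair

end Cfsg.Agent.Lib.CycBS
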