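import Mathlib
import Cfsg.Prelude.Def_Blocks
import Cfsg.Agent.Lib.CycBS.Cent
import Cfsg.Agent.Lib.CycBS.Pair
import Cfsg.Agent.Lib.WeakClosed.BlockStat

/-!
# The master identity

For a linear character `lam` of `A = ⟨x⟩` and `t` of order `p`:
`∑_{χ ∈ B₀} conj (χ u) χ t W_lam χ = |P| φ ∑_{a' ∈ A, a' ~ u} lam a'⁻¹`,
where `W_lam χ = (∑_{a ∈ A} lam a χ a⁻¹) / χ 1` is a nonnegative multiple of `|A| / χ 1`.
-/

set_option autoImplicit false
set_option linter.unusedSectionVars false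
set_option linter.style.haveILetI false

namespace Cfsg.Agent.Lib.CycBS

open Cfsg Subgroup
open Cfsg.Agent.Lib.Blocks.Sections Cfsg.Agent.Lib.Blocks.Principal Cfsg.Agent.Lib.Blocks.PrincipalCen
open scoped ComplexConjugate

universe u

/-- The hypothesis of the theorem. -/
def PairHyp (p : ℕ) (G : Type u) [Group G] : Prop :=
  ∀ x y : G, orderOf x = p → orderOf y = p → IsPSolvable p (closure ({x, y} : Set G))

section Weight

variable {G : Type u} [Group G] [Fintype G]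

/-- The twisted sum of the values of a representation is a natural multiple of the order. -/
theorem exists_nat_sum_lam {V : Type*} [AddCommGroup V] [Module ℂ V] [FiniteDimensional ℂ V]
    (ρ : Representation ℂ G V) (A : Subgroup G) [Fintype A] (lam : A →* ℂ) :
    ∃ n : ℕ, ∑ a : A, lam a * LinearMap.trace ℂ V (ρ ((a : G)⁻¹)) = (Nat.card A : ℂ) * n := by
  classical
  have hA : (Nat.card A : ℂ) ≠ 0 := by exact_mod_cast Nat.card_pos.ne'
  obtain ⟨T, hT⟩ : ∃ T : V →ₗ[ℂ] V, T = ∑ a : A, lam a • ρ ((a : G)⁻¹) := ⟨_, rfl⟩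
  have hstep : ∀ a : A, (lam a • ρ ((a : G)⁻¹)) * T = T := by
    intro a
    have h1 : (lam a • ρ ((a : G)⁻¹)) * T = ∑ b : A, lam (b * a) • ρ (((b * a : A) : G)⁻¹) := by
      rw [hT, Finset.mul_sum]
      refine Finset.sum_congr rfl fun b _ => ?_
      rw [smul_mul_smul_comm, ← map_mul ρ, map_mul lam b a, mul_comm (lam b)]
      have h5 : ((a : G)⁻¹ * (b : G)⁻¹) = (((b * a : A) : G))⁻¹ := by simp
      rw [h5]
    rw [h1, hT]
    exact Equiv.sum_comp (Equiv.mulRight a) (fun c : A => lam c • ρ ((c : G)⁻¹))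
  have hTT : T * T = (Nat.card A : ℂ) • T := by
    nth_rewrite 1 [hT]
    rw [Finset.sum_mul, Finset.sum_congr rfl (fun a _ => hstep a), Finset.sum_const, Finset.card_univ,
      Nat.card_eq_fintype_card, Nat.cast_smul_eq_nsmul]
  set E : V →ₗ[ℂ] V := (Nat.card A : ℂ)⁻¹ • T with hE
  have hidem : IsIdempotentElem E := by
    show E * E = E
    rw [hE, smul_mul_smul_comm, hTT, smul_smul, mul_assoc, inv_mul_cancel₀ hA, mul_one]
  have htr := (LinearMap.IsIdempotentElem.isProj_range E hidem).trace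
  refine ⟨Module.finrank ℂ (LinearMap.range E), ?_⟩
  have h2 : LinearMap.trace ℂ V T = (Nat.card A : ℂ) * LinearMap.trace ℂ V E := by
    rw [hE, map_smul, smul_eq_mul, ← mul_assoc, mul_inv_cancel₀ hA, one_mul]
  rw [← htr, ← h2, hT, map_sum]
  refine Finset.sum_congr rfl fun a _ => ?_
  rw [map_smul, smul_eq_mul]

/-- The weight attached to a linear character of a subgroup. -/
noncomputable def W {A : Subgroup G} [Fintype A] (lam : A →* ℂ) (χ : G → ℂ) : ℂ :=
  (∑ a : A, lam a * χ ((a : G)⁻¹)) / χ 1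

/-- The twisted sum of the values of an irreducible character. -/
theorem exists_nat_sum_irr (A : Subgroup G) [Fintype A] (lam : A →* ℂ) (χ : IrrCharacter G) :
    ∃ n : ℕ, ∑ a : A, lam a * (χ : G → ℂ) ((a : G)⁻¹) = (Nat.card A : ℂ) * n := by
  obtain ⟨d, ρ, -, hρ⟩ := χ.2
  obtain ⟨n, hn⟩ := exists_nat_sum_lam ρ A lam
  refine ⟨n, ?_⟩
  rw [← hn, ← hρ]
  rfl

/-- The weight is nonnegative. -/
theorem exists_real_W (A : Subgroup G) [Fintype A] (lam : A →* ℂ) (χ : IrrCharacter G) :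
    ∃ r : ℝ, 0 ≤ r ∧ W lam (χ : G → ℂ) = (r : ℂ) := by
  obtain ⟨n, hn⟩ := exists_nat_sum_irr A lam χ
  refine ⟨(Nat.card A : ℝ) * n / (charDegree (χ : G → ℂ) : ℝ), by positivity, ?_⟩
  rw [W, hn, ← Cfsg.Agent.Lib.Blocks.RegInt.charDegree_cast χ]
  push_cast
  ring

end Weight

section RankOne

/-- **The rank-one lemma.** -/
theorem rank_one {B K : Type*} [Fintype B] (w : B → ℝ) (hw : ∀ b, 0 ≤ w b) (r : B → K → ℂ) (η φ : K → ℂ)
    (h : ∀ k l, ∑ b, (w b : ℂ) * (conj (r b k) * r b l) = η k * φ l) (k k' : K) (b : B) (hb : w b ≠ 0) :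
    conj (η k') * r b k = conj (η k) * r b k' := by
  classical
  set v : B → ℂ := fun b => conj (η k') * r b k - conj (η k) * r b k' with hv
  have h0 : ∀ l, ∑ b, (w b : ℂ) * (conj (v b) * r b l) = 0 := by
    intro l
    have h1 : ∀ b, (w b : ℂ) * (conj (v b) * r b l) =
        η k' * ((w b : ℂ) * (conj (r b k) * r b l)) - η k * ((w b : ℂ) * (conj (r b k') * r b l)) := by
      intro b
      simp only [hv, map_sub, map_mul, Complex.conj_conj]
      ring
    rw [Finset.sum_congr rfl fun b _ => h1 b, Finset.sum_sub_distrib, ← Finset.mul_sum, ← Finset.mul_sum, h, h]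
    ring
  have h2 : ∑ b, (w b : ℂ) * (conj (v b) * v b) = 0 := by
    have h3 : ∀ b, (w b : ℂ) * (conj (v b) * v b) =
        conj (η k') * ((w b : ℂ) * (conj (v b) * r b k)) - conj (η k) * ((w b : ℂ) * (conj (v b) * r b k')) := by
      intro b
      simp only [hv]
      ring
    rw [Finset.sum_congr rfl fun b _ => h3 b, Finset.sum_sub_distrib, ← Finset.mul_sum, ← Finset.mul_sum, h0, h0]
    ring
  have h3 : ∑ b, w b * Complex.normSq (v b) = 0 := by
    have h4 : ((∑ b, w b * Complex.normSq (v b) : ℝ) : ℂ) = 0 := by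
      rw [← h2]
      push_cast
      refine Finset.sum_congr rfl fun b _ => ?_
      rw [Complex.normSq_eq_conj_mul_self]
    exact_mod_cast h4
  have h4 := (Finset.sum_eq_zero_iff_of_nonneg (fun b _ => mul_nonneg (hw b) (Complex.normSq_nonneg _))).1 h3 b
    (Finset.mem_univ b)
  have h5 : Complex.normSq (v b) = 0 := (mul_eq_zero.1 h4).resolve_left hb
  have h6 : v b = 0 := Complex.normSq_eq_zero.1 h5
  exact sub_eq_zero.1 h6

end RankOne

section Master

variable {G : Type u} [Group G] [Fintype G] {M : Ideal AlgInt} [hMp : M.IsPrime] {p : ℕ} [hp : Fact p.Prime]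

open Classical in
/-- The twisted sum along a coset of `⟨x⟩`. -/
theorem coset_sum (hM : IsPModular p M) (P : Sylow p G) (hc : IsCyclic (P : Subgroup G)) {s : G}
    (A : Subgroup G) [Fintype A] (lam : A →* ℂ) {a₀ : A}
    (ha₀ : ∀ a : A, ∀ v, IsPPart p ((a : G)⁻¹ * s) v → IsConj v ((a : G)⁻¹ * a₀))
    {u : G} (huP : u ∈ (P : Subgroup G)) (hu1 : u ≠ 1) :
    ∑ a : A, lam a * ∑ χ ∈ Finset.univ.filter (· ∈ principalBlock M G),
        (χ : G → ℂ) ((a : G)⁻¹ * s) * conj ((χ : G → ℂ) u) =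
      (Nat.card P : ℂ) * lam a₀ * ∑ a' : A, if IsConj (a' : G) u then lam a'⁻¹ else 0 := by
  have h1 : ∀ a : A, ∑ χ ∈ Finset.univ.filter (· ∈ principalBlock M G),
        (χ : G → ℂ) ((a : G)⁻¹ * s) * conj ((χ : G → ℂ) u) =
      if IsConj ((a : G)⁻¹ * a₀) u then (Nat.card P : ℂ) else 0 := by
    intro a
    obtain ⟨v, hv⟩ := Cfsg.Agent.Lib.Blocks.SecondMain.exists_isPPart p ((a : G)⁻¹ * s)
    rw [section_sum hM P hc huP hu1 hv]
    have h2 := ha₀ a v hv
    by_cases h3 : IsConj v u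
    · rw [if_pos h3, if_pos (h2.symm.trans h3)]
    · rw [if_neg h3, if_neg (fun h4 => h3 (h2.trans h4))]
  rw [Finset.sum_congr rfl fun a _ => by rw [h1 a]]
  let e : A ≃ A := (Equiv.inv A).trans (Equiv.mulLeft a₀)
  rw [← Equiv.sum_comp e, Finset.mul_sum]
  refine Finset.sum_congr rfl fun a' _ => ?_
  have he : (e a') = a₀ * a'⁻¹ := rfl
  have h4 : (((e a' : A) : G)⁻¹ * (a₀ : G)) = (a' : G) := by
    rw [he]
    simp
  rw [h4, he, map_mul]
  split_ifs
  · ring
  · simp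

lemma irr_mul_comm (χ : IrrCharacter G) (a b : G) : (χ : G → ℂ) (a * b) = (χ : G → ℂ) (b * a) := by
  have h := Cfsg.Agent.Lib.Blocks.Central.isClassFunction_of_irr χ.2 (a * b) b
  rw [← h]
  congr 1
  group

open Classical in
/-- **The master identity.** -/
theorem master (hM : IsPModular p M) (P : Sylow p G) (hc : IsCyclic (P : Subgroup G)) (hH : PairHyp p G)
    (hcyc : ∀ Q : Sylow p G, IsCyclic Q) {x : G} (hx : orderOf x = p)
    [Fintype (zpowers x)] (lam : zpowers x →* ℂ) {t : G} (ht : orderOf t = p) :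
    ∃ φ : ℂ, ((∀ a, lam a = 1) → φ = 1) ∧ ∀ u ∈ (P : Subgroup G), u ≠ 1 →
      ∑ χ ∈ Finset.univ.filter (· ∈ principalBlock M G),
          (conj ((χ : G → ℂ) u) * (χ : G → ℂ) t) * W lam (χ : G → ℂ) =
        (Nat.card P : ℂ) * φ * ∑ a' : zpowers x, if IsConj (a' : G) u then lam a'⁻¹ else 0 := by
  set S := Cfsg.Agent.Lib.Char.Integrality.classFinset t with hS
  have hSo : ∀ s ∈ S, orderOf s = p := by
    intro s hs
    obtain ⟨c, hc'⟩ := isConj_iff.1 ((Cfsg.Agent.Lib.Char.Integrality.mem_classFinset t s).1 hs)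
    rw [← hc', Cfsg.Agent.Lib.Transfer.Basic.orderOf_conj_eq, ht]
  have hex : ∀ s : G, ∃ a₀ : zpowers x, s ∈ S →
      ∀ a : zpowers x, ∀ v, IsPPart p ((a : G)⁻¹ * s) v → IsConj v ((a : G)⁻¹ * a₀) := by
    intro s
    by_cases hs : s ∈ S
    · obtain ⟨a₀, ha₀, h⟩ := pair_structure hcyc hx (hSo s hs) (hH x s hx (hSo s hs))
      exact ⟨⟨a₀, ha₀⟩, fun _ a v hv => h a a.2 v hv⟩
    · exact ⟨1, fun h => absurd h hs⟩
  choose a₀ ha₀ using hex
  have hn : ((S.card : ℕ) : ℂ) ≠ 0 := by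
    have : 0 < S.card := Finset.card_pos.2 ⟨t, (Cfsg.Agent.Lib.Char.Integrality.mem_classFinset t t).2 (IsConj.refl t)⟩
    exact_mod_cast this.ne'
  refine ⟨((S.card : ℕ) : ℂ)⁻¹ * ∑ s ∈ S, lam (a₀ s), ?_, ?_⟩
  · intro h1
    rw [Finset.sum_congr rfl fun s _ => h1 (a₀ s), Finset.sum_const, nsmul_eq_mul, mul_one,
      inv_mul_cancel₀ hn]
  intro u huP hu1
  set η : ℂ := ∑ a' : zpowers x, if IsConj (a' : G) u then lam a'⁻¹ else 0 with hη
  -- the two evaluations of the double sum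
  have h1 : ∑ s ∈ S, ∑ a : zpowers x, lam a * ∑ χ ∈ Finset.univ.filter (· ∈ principalBlock M G),
        (χ : G → ℂ) ((a : G)⁻¹ * s) * conj ((χ : G → ℂ) u) =
      ∑ s ∈ S, (Nat.card P : ℂ) * lam (a₀ s) * η :=
    Finset.sum_congr rfl fun s hs => coset_sum hM P hc _ lam (ha₀ s hs) huP hu1
  have h2 : ∑ s ∈ S, ∑ a : zpowers x, lam a * ∑ χ ∈ Finset.univ.filter (· ∈ principalBlock M G),
        (χ : G → ℂ) ((a : G)⁻¹ * s) * conj ((χ : G → ℂ) u) =
      ((S.card : ℕ) : ℂ) * ∑ χ ∈ Finset.univ.filter (· ∈ principalBlock M G),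
          (conj ((χ : G → ℂ) u) * (χ : G → ℂ) t) * W lam (χ : G → ℂ) := by
    have h3 : ∀ χ : IrrCharacter G, ∑ s ∈ S, ∑ a : zpowers x, lam a * ((χ : G → ℂ) ((a : G)⁻¹ * s) * conj ((χ : G → ℂ) u)) =
        ((S.card : ℕ) : ℂ) * ((conj ((χ : G → ℂ) u) * (χ : G → ℂ) t) * W lam (χ : G → ℂ)) := by
      intro χ
      rw [Finset.sum_comm]
      have h4 : ∀ a : zpowers x, ∑ s ∈ S, lam a * ((χ : G → ℂ) ((a : G)⁻¹ * s) * conj ((χ : G → ℂ) u)) =
          lam a * conj ((χ : G → ℂ) u) * (((S.card : ℕ) : ℂ) * (χ : G → ℂ) t / (χ : G → ℂ) 1 * (χ : G → ℂ) ((a : G)⁻¹)) := by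
        intro a
        have h5 := Cfsg.Agent.Lib.WeakClosed.BlockStat.sum_class t ((a : G)⁻¹) χ
        rw [← Cfsg.Agent.Lib.Char.Integrality.card_classFinset, ← hS] at h5
        rw [← h5, Finset.mul_sum]
        refine Finset.sum_congr rfl fun s _ => ?_
        rw [irr_mul_comm χ ((a : G)⁻¹) s]
        ring
      rw [Finset.sum_congr rfl fun a _ => h4 a, W, Finset.sum_div, Finset.mul_sum, Finset.mul_sum]
      refine Finset.sum_congr rfl fun a _ => ?_
      ring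
    simp only [Finset.mul_sum (s := Finset.univ.filter (· ∈ principalBlock M G))]
    rw [Finset.sum_congr rfl fun s _ => Finset.sum_comm]
    rw [Finset.sum_comm]
    exact Finset.sum_congr rfl fun χ _ => h3 χ
  apply mul_left_cancel₀ hn
  rw [← h2, h1]
  clear_value η
  have h5 : ∑ s ∈ S, (Nat.card P : ℂ) * lam (a₀ s) * η = (Nat.card P : ℂ) * (∑ s ∈ S, lam (a₀ s)) * η := by
    rw [Finset.mul_sum, Finset.sum_mul]
  rw [h5]
  field_simp

end Master

end Cfsg.Agent.Lib.CycBS
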