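import Mathlib
import Cfsg.Prelude.Def_Blocks
import Cfsg.Agent.Lib.CycBS.Master
import Cfsg.Agent.Lib.Char.FrobeniusKernel
import Cfsg.Agent.Lib.Char.LinearChars

/-!
# The first reduction: all nonidentity elements of `⟨x⟩` are conjugate

If `G` is simple nonabelian with cyclic Sylow `p`-subgroups and the hypothesis on pairs holds, then
all nonidentity powers of `x` are conjugate.
-/

set_option autoImplicit false
set_option linter.unusedSectionVars false
set_option linter.style.haveILetI false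

namespace Cfsg.Agent.Lib.CycBS

open Cfsg Subgroup
open Cfsg.Agent.Lib.Blocks.Sections Cfsg.Agent.Lib.Blocks.Principal Cfsg.Agent.Lib.Blocks.PrincipalCen
open scoped ComplexConjugate

universe u

section Simple

variable {G : Type u} [Group G] [Fintype G]

/-- A character with a nonidentity element in its kernel, in a simple group. -/
theorem eq_triv_of_simple [IsSimpleGroup G] (χ : IrrCharacter G) {x : G} (hx : x ≠ 1)
    (h : (χ : G → ℂ) x = (χ : G → ℂ) 1) : χ = trivChar G := by
  classical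
  obtain ⟨K, hK, hKm⟩ := Cfsg.Agent.Lib.Char.FrobeniusKernel.exists_kernel
    (Cfsg.Agent.Lib.Char.Basic.isCharacter_of_isIrrCharacter χ.2)
  have hxK : x ∈ K := (hKm x).2 h
  have htop : K = ⊤ := by
    rcases hK.eq_bot_or_eq_top with h1 | h1
    · rw [h1] at hxK
      exact absurd (Subgroup.mem_bot.1 hxK) hx
    · exact h1
  have hall : ∀ g, (χ : G → ℂ) g = (χ : G → ℂ) 1 := fun g => (hKm g).1 (by rw [htop]; exact mem_top g)
  have h1 := Cfsg.Agent.Lib.Char.Ortho.classInner_irr_self χ.2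
  rw [classInner] at h1
  have h2 : (χ : G → ℂ) 1 = ((charDegree (χ : G → ℂ) : ℕ) : ℂ) := (Cfsg.Agent.Lib.Blocks.RegInt.charDegree_cast χ).symm
  have h3 : ∑ g : G, (χ : G → ℂ) g * conj ((χ : G → ℂ) g) = (Nat.card G : ℂ) * ((charDegree (χ : G → ℂ) : ℕ) : ℂ) ^ 2 := by
    rw [Finset.sum_congr rfl fun g _ => by rw [hall g, h2, Complex.conj_natCast]]
    rw [Finset.sum_const, Finset.card_univ, Nat.card_eq_fintype_card, nsmul_eq_mul, sq]
  have hG : (Nat.card G : ℂ) ≠ 0 := by exact_mod_cast Nat.card_pos.ne'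
  have h4 : ((charDegree (χ : G → ℂ) : ℕ) : ℂ) ^ 2 = 1 := by
    have : (Nat.card G : ℂ)⁻¹ * ((Nat.card G : ℂ) * ((charDegree (χ : G → ℂ) : ℕ) : ℂ) ^ 2) = 1 := by
      rw [← h3]
      exact h1
    rwa [← mul_assoc, inv_mul_cancel₀ hG, one_mul] at this
  have h5 : charDegree (χ : G → ℂ) ^ 2 = 1 := by exact_mod_cast h4
  have h6 : charDegree (χ : G → ℂ) = 1 := by
    simpa using h5
  apply Subtype.ext
  funext g
  rw [hall g, h2, h6]
  simp [coe_trivChar]

/-- A linear character of a nonabelian simple group is trivial. -/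
theorem eq_triv_of_degree_one [IsSimpleGroup G] (hna : ∃ a b : G, a * b ≠ b * a) (χ : IrrCharacter G)
    (h : (χ : G → ℂ) 1 = 1) : χ = trivChar G := by
  obtain ⟨a, b, hab⟩ := hna
  obtain ⟨φ, hφ⟩ := Cfsg.Agent.Lib.Char.LinearChars.exists_hom_of_isCharacter_one
    (Cfsg.Agent.Lib.Char.Basic.isCharacter_of_isIrrCharacter χ.2) h
  have hc1 : a * b * a⁻¹ * b⁻¹ ≠ 1 := by
    intro h1
    apply hab
    calc a * b = (a * b * a⁻¹ * b⁻¹) * (b * a) := by group
      _ = b * a := by rw [h1, one_mul]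
  apply eq_triv_of_simple χ hc1
  rw [h, hφ]
  simp only [map_mul, map_inv]
  have h2 : φ a * φ b * (φ a)⁻¹ * (φ b)⁻¹ = 1 := by
    rw [mul_comm (φ a) (φ b)]
    group
  rw [h2]
  rfl

end Simple

section Rank

/-- **The rank-one lemma**, on a subset of indices. -/
theorem rank_one' {B K : Type*} (s : Finset B) (w : B → ℝ) (hw : ∀ b ∈ s, 0 ≤ w b) (r : B → K → ℂ) (η φ : K → ℂ)
    (Q : K → Prop) (h : ∀ k l, Q k → Q l → ∑ b ∈ s, (w b : ℂ) * (conj (r b k) * r b l) = η k * φ l) {k k' : K}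
    (hk : Q k) (hk' : Q k') {b : B} (hbs : b ∈ s) (hb : w b ≠ 0) :
    conj (η k') * r b k = conj (η k) * r b k' := by
  classical
  set v : B → ℂ := fun b => conj (η k') * r b k - conj (η k) * r b k' with hv
  have h0 : ∀ l, Q l → ∑ b ∈ s, (w b : ℂ) * (conj (v b) * r b l) = 0 := by
    intro l hl
    have h1 : ∀ b ∈ s, (w b : ℂ) * (conj (v b) * r b l) =
        η k' * ((w b : ℂ) * (conj (r b k) * r b l)) - η k * ((w b : ℂ) * (conj (r b k') * r b l)) := by
      intro b _
      simp only [hv, map_sub, map_mul, Complex.conj_conj]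
      ring
    rw [Finset.sum_congr rfl h1, Finset.sum_sub_distrib, ← Finset.mul_sum, ← Finset.mul_sum, h k l hk hl,
      h k' l hk' hl]
    ring
  have h2 : ∑ b ∈ s, (w b : ℂ) * (conj (v b) * v b) = 0 := by
    have h3 : ∀ b ∈ s, (w b : ℂ) * (conj (v b) * v b) =
        conj (η k') * ((w b : ℂ) * (conj (v b) * r b k)) - conj (η k) * ((w b : ℂ) * (conj (v b) * r b k')) := by
      intro b _
      simp only [hv]
      ring
    rw [Finset.sum_congr rfl h3, Finset.sum_sub_distrib, ← Finset.mul_sum, ← Finset.mul_sum, h0 k hk, h0 k' hk']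
    ring
  have h3 : ∑ b ∈ s, w b * Complex.normSq (v b) = 0 := by
    have h4 : ((∑ b ∈ s, w b * Complex.normSq (v b) : ℝ) : ℂ) = 0 := by
      rw [← h2]
      push_cast
      refine Finset.sum_congr rfl fun b _ => ?_
      rw [Complex.normSq_eq_conj_mul_self]
    exact_mod_cast h4
  have h4 := (Finset.sum_eq_zero_iff_of_nonneg (fun b hb => mul_nonneg (hw b hb) (Complex.normSq_nonneg _))).1 h3 b hbs
  have h5 : Complex.normSq (v b) = 0 := (mul_eq_zero.1 h4).resolve_left hb
  have h6 : v b = 0 := Complex.normSq_eq_zero.1 h5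
  exact sub_eq_zero.1 h6

end Rank

section Eta

variable {G : Type u} [Group G] [Fintype G] {p : ℕ} [hp : Fact p.Prime]

/-- The twisted count. -/
noncomputable def Eta {x : G} [Fintype (zpowers x)] (lam : zpowers x →* ℂ) (u : G) : ℂ := by
  classical
  exact ∑ a' : zpowers x, if IsConj (a' : G) u then lam a'⁻¹ else 0

/-- The number of conjugates of `u` in `⟨x⟩`. -/
noncomputable def NC (x u : G) [Fintype (zpowers x)] : ℕ := by
  classical
  exact (Finset.univ.filter fun a' : zpowers x => IsConj (a' : G) u).card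

lemma orderOf_of_mem_zpowers {x y : G} (hx : orderOf x = p) (hy : y ∈ zpowers x) (hy1 : y ≠ 1) : orderOf y = p := by
  have h1 : orderOf y ∣ p := by
    rw [← hx]
    exact orderOf_dvd_of_mem_zpowers hy
  exact ((Nat.dvd_prime hp.out).1 h1).resolve_left fun h => hy1 (orderOf_eq_one_iff.1 h)

lemma zpowers_eq_of_mem {x y : G} (hx : orderOf x = p) (hy : y ∈ zpowers x) (hy1 : y ≠ 1) :
    zpowers y = zpowers x := by
  apply Subgroup.eq_of_le_of_card_ge (zpowers_le.2 hy)
  rw [Nat.card_zpowers, Nat.card_zpowers, hx, orderOf_of_mem_zpowers hx hy hy1]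

lemma NC_le {x u u' : G} [Fintype (zpowers x)] (hx : orderOf x = p) (hu : u ∈ zpowers x) (hu1 : u ≠ 1)
    (hu' : u' ∈ zpowers x) (hu'1 : u' ≠ 1) : NC x u ≤ NC x u' := by
  classical
  have hzu := zpowers_eq_of_mem hx hu hu1
  have hou := orderOf_of_mem_zpowers hx hu hu1
  obtain ⟨k, hk⟩ := (mem_powers_iff_mem_zpowers (x := u) (y := u')).2 (by rw [hzu]; exact hu')
  have hk' : u ^ k = u' := hk
  have hpk : ¬ p ∣ k := by
    intro h
    apply hu'1
    rw [← hk']
    obtain ⟨j, rfl⟩ := h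
    rw [pow_mul, ← hou, pow_orderOf_eq_one, one_pow]
  unfold NC
  refine Finset.card_le_card_of_injOn (fun a => a ^ k) ?_ ?_
  · intro a ha
    have ha' := (Finset.mem_filter.1 ha).2
    refine Finset.mem_filter.2 ⟨Finset.mem_univ _, ?_⟩
    obtain ⟨c, hc⟩ := isConj_iff.1 ha'
    refine isConj_iff.2 ⟨c, ?_⟩
    have h3 : c * (a : G) ^ k * c⁻¹ = (c * (a : G) * c⁻¹) ^ k := by
      have := map_pow (MulAut.conj c).toMonoidHom (a : G) k
      simpa [MulAut.conj_apply] using this.symm
    simp only [Subgroup.coe_pow]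
    rw [h3, hc, hk']
  · intro a _ b _ hab
    have hab' : a ^ k = b ^ k := hab
    haveI : IsMulCommutative (zpowers x) := IsCyclic.isMulCommutative
    have hcomm : Commute a b⁻¹ := IsMulCommutative.is_comm.comm a b⁻¹
    have hq : (a * b⁻¹) ^ k = 1 := by
      rw [hcomm.mul_pow, inv_pow, hab', mul_inv_cancel]
    have h1 : orderOf (a * b⁻¹) ∣ k := orderOf_dvd_of_pow_eq_one hq
    have h2 : orderOf (a * b⁻¹) ∣ p := by
      have h3 : (a * b⁻¹) ^ p = 1 := by
        have h4 : ∀ c : zpowers x, c ^ p = 1 := by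
          intro c
          apply Subtype.ext
          obtain ⟨i, hi⟩ := Subgroup.mem_zpowers_iff.1 c.2
          simp only [Subgroup.coe_pow, OneMemClass.coe_one]
          rw [← hi, ← zpow_natCast, ← zpow_mul, mul_comm, zpow_mul, zpow_natCast, ← hx, pow_orderOf_eq_one, one_zpow]
        exact h4 _
      exact orderOf_dvd_of_pow_eq_one h3
    rcases (Nat.dvd_prime hp.out).1 h2 with h3 | h3
    · exact mul_inv_eq_one.1 (orderOf_eq_one_iff.1 h3)
    · rw [h3] at h1
      exact absurd h1 hpk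

lemma NC_eq {x u u' : G} [Fintype (zpowers x)] (hx : orderOf x = p) (hu : u ∈ zpowers x) (hu1 : u ≠ 1)
    (hu' : u' ∈ zpowers x) (hu'1 : u' ≠ 1) : NC x u = NC x u' :=
  le_antisymm (NC_le hx hu hu1 hu' hu'1) (NC_le hx hu' hu'1 hu hu1)

lemma Eta_one {x : G} [Fintype (zpowers x)] (u : G) : Eta (1 : zpowers x →* ℂ) u = (NC x u : ℂ) := by
  classical
  unfold Eta NC
  simp only [MonoidHom.one_apply]
  rw [Finset.card_filter]
  push_cast
  exact Finset.sum_congr rfl fun a _ => by congr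

lemma NC_pos {x u : G} [Fintype (zpowers x)] (hu : u ∈ zpowers x) : 0 < NC x u := by
  classical
  unfold NC
  exact Finset.card_pos.2 ⟨⟨u, hu⟩, Finset.mem_filter.2 ⟨Finset.mem_univ _, IsConj.refl u⟩⟩

/-- `NC x x ≤ p - 1`. -/
lemma NC_lt {x : G} [Fintype (zpowers x)] (hx : orderOf x = p) : NC x x ≤ p - 1 := by
  classical
  have hx1 : x ≠ 1 := by
    rintro rfl
    rw [orderOf_one] at hx
    exact hp.out.one_lt.ne hx
  have hcard : Fintype.card (zpowers x) = p := by
    rw [← Nat.card_eq_fintype_card, Nat.card_zpowers, hx]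
  unfold NC
  have h1 : (Finset.univ.filter fun a' : zpowers x => IsConj (a' : G) x) ⊆ Finset.univ.erase 1 := by
    intro a ha
    refine Finset.mem_erase.2 ⟨?_, Finset.mem_univ _⟩
    rintro rfl
    have h2 := (Finset.mem_filter.1 ha).2
    have h3 : IsConj (1 : G) x := h2
    exact hx1 (isConj_one_right.1 h3)
  have h2 := Finset.card_le_card h1
  rw [Finset.card_erase_of_mem (Finset.mem_univ _), Finset.card_univ, hcard] at h2
  exact h2

end Eta

end Cfsg.Agent.Lib.CycBS
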