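import Mathlib
import Cfsg.Prelude.Def_Blocks
import Cfsg.Agent.Lib.CycBS.Excl

/-!
# The first reduction, main part
-/

set_option autoImplicit false
set_option linter.unusedSectionVars false
set_option linter.style.haveILetI false

namespace Cfsg.Agent.Lib.CycBS

open Cfsg Subgroup
open Cfsg.Agent.Lib.Blocks.Sections Cfsg.Agent.Lib.Blocks.Principal Cfsg.Agent.Lib.Blocks.PrincipalCen
open scoped ComplexConjugate

universe u

section Main

variable {G : Type u} [Group G] [Fintype G] {M : Ideal AlgInt} [hMp : M.IsPrime] {p : ℕ} [hp : Fact p.Prime]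

open Classical in
theorem ro_master (hM : IsPModular p M) (P : Sylow p G) (hc : IsCyclic (P : Subgroup G)) (hH : PairHyp p G)
    (hcyc : ∀ Q : Sylow p G, IsCyclic Q) {x : G} (hx : orderOf x = p) (hxP : x ∈ (P : Subgroup G))
    [Fintype (zpowers x)] (lam : zpowers x →* ℂ) {u u' : G} (hu : u ∈ zpowers x) (hu1 : u ≠ 1)
    (hu' : u' ∈ zpowers x) (hu'1 : u' ≠ 1) {χ : IrrCharacter G} (hχ : χ ∈ principalBlock M G)
    (hW : W lam (χ : G → ℂ) ≠ 0) :
    conj (Eta lam u') * (χ : G → ℂ) u = conj (Eta lam u) * (χ : G → ℂ) u' := by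
  set s := Finset.univ.filter (· ∈ principalBlock M G) with hs
  let w : IrrCharacter G → ℝ := fun χ => (W lam (χ : G → ℂ)).re
  have hww : ∀ χ : IrrCharacter G, W lam (χ : G → ℂ) = (w χ : ℂ) := by
    intro χ
    obtain ⟨r, hr, h⟩ := exists_real_W (zpowers x) lam χ
    simp [w, h]
  have hw0 : ∀ χ ∈ s, 0 ≤ w χ := by
    intro χ _
    obtain ⟨r, hr, h⟩ := exists_real_W (zpowers x) lam χ
    simp [w, h, hr]
  let Q : G → Prop := fun y => y ∈ zpowers x ∧ y ≠ 1
  have hAP : zpowers x ≤ (P : Subgroup G) := zpowers_le.2 hxP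
  have hex : ∀ t : G, ∃ φ : ℂ, Q t → ∀ u ∈ (P : Subgroup G), u ≠ 1 →
      ∑ χ ∈ s, (conj ((χ : G → ℂ) u) * (χ : G → ℂ) t) * W lam (χ : G → ℂ) =
        (Nat.card P : ℂ) * φ * Eta lam u := by
    intro t
    by_cases ht : Q t
    · obtain ⟨φ, -, h⟩ := master hM P hc hH hcyc hx lam (orderOf_of_mem_zpowers hx ht.1 ht.2)
      exact ⟨φ, fun _ => h⟩
    · exact ⟨0, fun h => absurd h ht⟩
  choose φ hφ using hex
  have key := rank_one' s w hw0 (fun χ y => (χ : G → ℂ) y) (fun y => (Nat.card P : ℂ) * Eta lam y) φ Q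
    (fun k l hk hl => by
      have h1 := hφ l hl k (hAP hk.1) hk.2
      have h2 : ∑ b ∈ s, (w b : ℂ) * (conj ((b : G → ℂ) k) * (b : G → ℂ) l) =
          ∑ b ∈ s, (conj ((b : G → ℂ) k) * (b : G → ℂ) l) * W lam (b : G → ℂ) :=
        Finset.sum_congr rfl fun b _ => by rw [hww b]; ring
      rw [h2, h1]
      ring)
    (k := u) (k' := u') ⟨hu, hu1⟩ ⟨hu', hu'1⟩ (Finset.mem_filter.2 ⟨Finset.mem_univ _, hχ⟩)
    (fun h0 => hW (by rw [hww, h0]; simp))
  have hc0 : (Nat.card P : ℂ) ≠ 0 := by exact_mod_cast Nat.card_pos.ne'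
  simp only [map_mul, Complex.conj_natCast] at key
  rw [mul_assoc, mul_assoc] at key
  exact mul_left_cancel₀ hc0 key

theorem const_of_W1 (hM : IsPModular p M) (P : Sylow p G) (hc : IsCyclic (P : Subgroup G)) (hH : PairHyp p G)
    (hcyc : ∀ Q : Sylow p G, IsCyclic Q) {x : G} (hx : orderOf x = p) (hxP : x ∈ (P : Subgroup G))
    [Fintype (zpowers x)] {u u' : G} (hu : u ∈ zpowers x) (hu1 : u ≠ 1)
    (hu' : u' ∈ zpowers x) (hu'1 : u' ≠ 1) {χ : IrrCharacter G} (hχ : χ ∈ principalBlock M G)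
    (hW : W (1 : zpowers x →* ℂ) (χ : G → ℂ) ≠ 0) : (χ : G → ℂ) u = (χ : G → ℂ) u' := by
  have h1 := ro_master hM P hc hH hcyc hx hxP 1 hu hu1 hu' hu'1 hχ hW
  rw [Eta_one, Eta_one, NC_eq hx hu hu1 hu' hu'1, Complex.conj_natCast] at h1
  have h2 : ((NC x u' : ℕ) : ℂ) ≠ 0 := by exact_mod_cast (NC_pos hu').ne'
  exact mul_left_cancel₀ h2 h1

open Classical in
theorem sum_W1 (hM : IsPModular p M) (P : Sylow p G) (hc : IsCyclic (P : Subgroup G)) (hH : PairHyp p G)
    (hcyc : ∀ Q : Sylow p G, IsCyclic Q) {x : G} (hx : orderOf x = p)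
    [Fintype (zpowers x)] {u t : G} (hu : u ∈ (P : Subgroup G)) (hu1 : u ≠ 1) (ht : orderOf t = p) :
    ∑ χ ∈ Finset.univ.filter (· ∈ principalBlock M G),
        (conj ((χ : G → ℂ) u) * (χ : G → ℂ) t) * W (1 : zpowers x →* ℂ) (χ : G → ℂ) =
      (Nat.card P : ℂ) * (NC x u : ℂ) := by
  obtain ⟨φ, h1, h2⟩ := master hM P hc hH hcyc hx (1 : zpowers x →* ℂ) ht
  rw [h2 u hu hu1, h1 (fun _ => rfl), mul_one]
  congr 1
  exact Eta_one u

/-- A nontrivial linear character of `⟨x⟩`. -/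
lemma exists_lam {x : G} (hx : orderOf x = p) :
    ∃ lam : zpowers x →* ℂ, ∃ g : zpowers x, lam g ≠ 1 := by
  classical
  have hζ : IsPrimitiveRoot (Complex.exp (2 * Real.pi * Complex.I / p)) p :=
    Complex.isPrimitiveRoot_exp p hp.out.ne_zero
  set ζ := Complex.exp (2 * Real.pi * Complex.I / p) with hζd
  let g : zpowers x := ⟨x, mem_zpowers x⟩
  have hg : ∀ y : zpowers x, y ∈ zpowers g := by
    rintro ⟨y, hy⟩
    obtain ⟨i, rfl⟩ := Subgroup.mem_zpowers_iff.1 hy
    exact Subgroup.mem_zpowers_iff.2 ⟨i, rfl⟩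
  have hog : orderOf g = p := by
    rw [Subgroup.orderOf_mk, hx]
  let g' : ℂˣ := (hζ.isUnit hp.out.ne_zero).unit
  have hg' : orderOf g' ∣ orderOf g := by
    rw [hog]
    apply orderOf_dvd_of_pow_eq_one
    apply Units.ext
    simpa [g'] using hζ.pow_eq_one
  let l := monoidHomOfForallMemZpowers hg hg'
  refine ⟨(Units.coeHom ℂ).comp l, g, ?_⟩
  have h1 : l g = g' := monoidHomOfForallMemZpowers_apply_gen hg hg'
  simp only [MonoidHom.comp_apply, Units.coeHom_apply, h1]
  simpa [g'] using hζ.ne_one hp.out.one_lt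

/-- The sum of a nontrivial linear character vanishes. -/
lemma sum_lam_eq_zero {A : Type*} [Group A] [Fintype A] (lam : A →* ℂ) {g : A} (hg : lam g ≠ 1) :
    ∑ a : A, lam a = 0 := by
  have h1 : ∑ a : A, lam (g * a) = ∑ a : A, lam a := Equiv.sum_comp (Equiv.mulLeft g) (fun a => lam a)
  simp only [map_mul, ← Finset.mul_sum] at h1
  have h2 : (lam g - 1) * ∑ a : A, lam a = 0 := by
    rw [sub_mul, h1, one_mul, sub_self]
  exact (mul_eq_zero.1 h2).resolve_left (sub_ne_zero.2 hg)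

/-- The twisted sum of a character constant on the nonidentity elements. -/
lemma sum_lam_const {x : G} [Fintype (zpowers x)] (lam : zpowers x →* ℂ) {χ : G → ℂ} {c : ℂ}
    (hχ : ∀ u ∈ zpowers x, u ≠ 1 → χ u = c) :
    ∑ a : zpowers x, lam a * χ ((a : G)⁻¹) = c * (∑ a : zpowers x, lam a) + (χ 1 - c) := by
  classical
  have h1 : ∀ a : zpowers x, lam a * χ ((a : G)⁻¹) = c * lam a + if a = 1 then χ 1 - c else 0 := by
    intro a
    by_cases ha : a = 1
    · subst ha
      simp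
    · have h2 : ((a : G)⁻¹) ≠ 1 := by
        simpa using fun h => ha (Subtype.ext h)
      rw [hχ _ (inv_mem a.2) h2, if_neg ha]
      ring
  rw [Finset.sum_congr rfl fun a _ => h1 a, Finset.sum_add_distrib, ← Finset.mul_sum]
  simp

open Classical in
/-- The sum of the values of `Eta` over the nonidentity elements. -/
lemma sum_Eta {x : G} [Fintype (zpowers x)] (hx : orderOf x = p) (lam : zpowers x →* ℂ) {g : zpowers x}
    (hg : lam g ≠ 1) :
    ∑ u : zpowers x, (if u = 1 then 0 else Eta lam (u : G)) = -(NC x x : ℂ) := by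
  have hx1 : x ≠ 1 := by
    rintro rfl
    rw [orderOf_one] at hx
    exact hp.out.one_lt.ne hx
  have h1 : ∀ u : zpowers x, (if u = 1 then (0 : ℂ) else Eta lam (u : G)) =
      ∑ a' : zpowers x, if u ≠ 1 ∧ IsConj (a' : G) (u : G) then lam a'⁻¹ else 0 := by
    intro u
    by_cases hu : u = 1
    · simp [hu]
    · rw [if_neg hu]
      unfold Eta
      refine Finset.sum_congr rfl fun a' _ => ?_
      simp [hu]
  rw [Finset.sum_congr rfl fun u _ => h1 u, Finset.sum_comm]
  have h2 : ∀ a' : zpowers x, ∑ u : zpowers x, (if u ≠ 1 ∧ IsConj (a' : G) (u : G) then lam a'⁻¹ else 0) =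
      if a' = 1 then 0 else (NC x x : ℂ) * lam a'⁻¹ := by
    intro a'
    by_cases ha : a' = 1
    · subst ha
      rw [if_pos rfl]
      refine Finset.sum_eq_zero fun u _ => ?_
      rw [if_neg]
      rintro ⟨h3, h4⟩
      have h5 : IsConj (1 : G) (u : G) := h4
      exact h3 (Subtype.ext (isConj_one_right.1 h5))
    · rw [if_neg ha]
      have ha1 : (a' : G) ≠ 1 := fun h => ha (Subtype.ext h)
      have h3 : NC x x = NC x (a' : G) := NC_eq hx (mem_zpowers x) hx1 a'.2 ha1
      rw [h3]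
      unfold NC
      rw [← Finset.sum_filter, Finset.sum_const, nsmul_eq_mul]
      have h6 : (Finset.univ.filter fun u : zpowers x => u ≠ 1 ∧ IsConj (a' : G) (u : G)) =
          (Finset.univ.filter fun u : zpowers x => IsConj (u : G) (a' : G)) := by
        ext u
        simp only [Finset.mem_filter, Finset.mem_univ, true_and]
        constructor
        · rintro ⟨-, h4⟩
          exact h4.symm
        · intro h4
          refine ⟨?_, h4.symm⟩
          rintro rfl
          have h5 : IsConj (1 : G) (a' : G) := h4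
          exact ha1 (isConj_one_right.1 h5)
      rw [h6]
  rw [Finset.sum_congr rfl fun a' _ => h2 a']
  have h3 : ∀ a' : zpowers x, (if a' = 1 then (0 : ℂ) else (NC x x : ℂ) * lam a'⁻¹) =
      (NC x x : ℂ) * lam a'⁻¹ - if a' = 1 then (NC x x : ℂ) else 0 := by
    intro a'
    by_cases ha : a' = 1
    · subst ha
      simp
    · simp [ha]
  rw [Finset.sum_congr rfl fun a' _ => h3 a', Finset.sum_sub_distrib, ← Finset.mul_sum]
  have h4 : ∑ a' : zpowers x, lam a'⁻¹ = 0 := by
    rw [← Equiv.sum_comp (Equiv.inv (zpowers x))]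
    have : ∀ a' : zpowers x, lam (Equiv.inv (zpowers x) a')⁻¹ = lam a' := fun a' => by simp
    rw [Finset.sum_congr rfl fun a' _ => this a']
    exact sum_lam_eq_zero lam hg
  rw [h4]
  simp

/-- Integrality of `Eta`. -/
lemma isIntegral_Eta {x : G} [Fintype (zpowers x)] (hx : orderOf x = p) (lam : zpowers x →* ℂ) (u : G) :
    IsIntegral ℤ (Eta lam u) := by
  classical
  unfold Eta
  refine IsIntegral.sum _ fun a' _ => ?_
  split_ifs
  · refine IsIntegral.of_pow hp.out.pos ?_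
    have h1 : (lam a'⁻¹) ^ p = lam (a'⁻¹ ^ p) := (map_pow lam _ _).symm
    have h2 : (a'⁻¹ : zpowers x) ^ p = 1 := by
      apply Subtype.ext
      obtain ⟨i, hi⟩ := Subgroup.mem_zpowers_iff.1 (a'⁻¹ : zpowers x).2
      simp only [Subgroup.coe_pow, OneMemClass.coe_one]
      rw [← hi, ← zpow_natCast, ← zpow_mul, mul_comm, zpow_mul, zpow_natCast, ← hx, pow_orderOf_eq_one, one_zpow]
    rw [h1, h2, map_one]
    exact isIntegral_one
  · exact isIntegral_zero

end Main

end Cfsg.Agent.Lib.CycBS
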