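import Mathlib
import Cfsg.Prelude.Def_Blocks
import Cfsg.Agent.Lib.CycBS.Excl2

/-!
# The first reduction, conclusion: `NC x x = p - 1`
-/

set_option autoImplicit false
set_option linter.unusedSectionVars false
set_option linter.style.haveILetI false

namespace Cfsg.Agent.Lib.CycBS

open Cfsg Subgroup
open Cfsg.Agent.Lib.Blocks.Sections Cfsg.Agent.Lib.Blocks.Principal Cfsg.Agent.Lib.Blocks.PrincipalCen
open scoped ComplexConjugate

universe u

section Main

variable {G : Type u} [Group G] [Fintype G] {M : Ideal AlgInt} [hMp : M.IsPrime] {p : ℕ} [hp : Fact p.Prime]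

/-- If `x` is conjugate to none of its other powers, a simple nonabelian group cannot exist. -/
theorem false_of_NC_one [IsSimpleGroup G] (hna : ∃ a b : G, a * b ≠ b * a) (P : Sylow p G)
    (hcyc : ∀ Q : Sylow p G, IsCyclic Q) {x : G} (hx : orderOf x = p) (hxP : x ∈ (P : Subgroup G))
    [Fintype (zpowers x)] (h : NC x x = 1) : False := by
  classical
  have hx1 : x ≠ 1 := by
    rintro rfl
    rw [orderOf_one] at hx
    exact hp.out.one_lt.ne hx
  have hcP : IsCyclic (P : Subgroup G) := hcyc P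
  have hNC : normalizer ((P : Subgroup G) : Set G) ≤ centralizer ((P : Subgroup G) : Set G) := by
    by_contra hn
    obtain ⟨y, hyN, hyc, hyn⟩ := Cfsg.Agent.Lib.CycSylow.exists_coprime_not_mem P hcP hn
    apply hyn
    obtain ⟨a, ha⟩ := IsPGroup.iff_card.mp P.isPGroup'
    have h1 : y * x * y⁻¹ ∈ (P : Subgroup G) := (Subgroup.mem_normalizer_iff.1 hyN x).1 hxP
    have h2 : orderOf (y * x * y⁻¹) = p := by
      rw [Cfsg.Agent.Lib.Transfer.Basic.orderOf_conj_eq, hx]
    have h3 : y * x * y⁻¹ ∈ zpowers x :=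
      Cfsg.Agent.Lib.CycSylow.mem_zpowers_of_order_p hcP hxP h1 hx h2
    have h4 : (⟨y * x * y⁻¹, h3⟩ : zpowers x) = ⟨x, mem_zpowers x⟩ := by
      unfold NC at h
      have h5 := Finset.card_le_one.1 (le_of_eq h)
      refine h5 _ (Finset.mem_filter.2 ⟨Finset.mem_univ _, ?_⟩) _
        (Finset.mem_filter.2 ⟨Finset.mem_univ _, IsConj.refl _⟩)
      exact (isConj_iff.2 ⟨y, rfl⟩).symm
    have h5 : y * x * y⁻¹ = x := congrArg Subtype.val h4
    have h6 : y * x = x * y := by
      calc y * x = (y * x * y⁻¹) * y := by group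
        _ = x * y := by rw [h5]
    exact centralizes_of_coprime hcP ha hyN hyc hxP hx1 h6
  obtain ⟨Q, N, hN, hcomp⟩ := Cfsg.Agent.Lib.CycSylow.hasComplement_of_normalizer_le P hNC
  have hi : (Q : Subgroup G).index = Nat.card N := hcomp.index_eq_card
  have hpG : p ∣ Nat.card G := by
    rw [← hx]
    exact orderOf_dvd_natCard x
  rcases hN.eq_bot_or_eq_top with h1 | h1
  · rw [h1, Subgroup.card_bot] at hi
    have h2 : (Q : Subgroup G) = ⊤ := Subgroup.index_eq_one.1 hi
    obtain ⟨a, b, hab⟩ := hna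
    apply hab
    haveI := hcyc Q
    have h3 := (IsCyclic.commGroup (α := (Q : Subgroup G))).mul_comm ⟨a, by rw [h2]; trivial⟩ ⟨b, by rw [h2]; trivial⟩
    exact congrArg Subtype.val h3
  · rw [h1, Subgroup.card_top] at hi
    exact Q.not_dvd_index (by rw [hi]; exact hpG)

/-- **All nonidentity powers of `x` are conjugate.** -/
theorem NC_eq_pred (hM : IsPModular p M) (P : Sylow p G) (hH : PairHyp p G)
    (hcyc : ∀ Q : Sylow p G, IsCyclic Q) [IsSimpleGroup G] (hna : ∃ a b : G, a * b ≠ b * a)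
    {x : G} (hx : orderOf x = p) (hxP : x ∈ (P : Subgroup G)) [Fintype (zpowers x)] :
    NC x x = p - 1 := by
  classical
  have hc : IsCyclic (P : Subgroup G) := hcyc P
  have hx1 : x ≠ 1 := by
    rintro rfl
    rw [orderOf_one] at hx
    exact hp.out.one_lt.ne hx
  by_contra hne
  have hzero : ∀ χ ∈ Finset.univ.filter (· ∈ principalBlock M G), χ ≠ trivChar G →
      (conj ((χ : G → ℂ) x) * (χ : G → ℂ) x) * W (1 : zpowers x →* ℂ) (χ : G → ℂ) = 0 := by
    intro χ hχs hχ1
    by_contra hnz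
    have hχ := (Finset.mem_filter.1 hχs).2
    have hW : W (1 : zpowers x →* ℂ) (χ : G → ℂ) ≠ 0 := right_ne_zero_of_mul hnz
    have hxv : (χ : G → ℂ) x ≠ 0 := right_ne_zero_of_mul (left_ne_zero_of_mul hnz)
    have hconst : ∀ u ∈ zpowers x, u ≠ 1 → (χ : G → ℂ) u = (χ : G → ℂ) x := fun u hu hu1 =>
      const_of_W1 hM P hc hH hcyc hx hxP hu hu1 (mem_zpowers x) hx1 hχ hW
    obtain ⟨lam, g, hg⟩ := exists_lam hx
    have hWl : W lam (χ : G → ℂ) ≠ 0 := by
      rw [W, sum_lam_const lam hconst, sum_lam_eq_zero lam hg, mul_zero, zero_add]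
      refine div_ne_zero (sub_ne_zero.2 fun h => hχ1 ?_) (Cfsg.Agent.Lib.Char.Ortho.irr_apply_one_ne_zero χ.2)
      exact eq_triv_of_simple χ hx1 h.symm
    have heta : ∀ u ∈ zpowers x, u ≠ 1 → Eta lam u = Eta lam x := by
      intro u hu hu1
      have h1 := ro_master hM P hc hH hcyc hx hxP lam hu hu1 (mem_zpowers x) hx1 hχ hWl
      rw [hconst u hu hu1] at h1
      have h2 := mul_right_cancel₀ hxv h1
      exact (star_injective h2).symm
    have hsum := sum_Eta hx lam hg
    have hcard : Fintype.card (zpowers x) = p := by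
      rw [← Nat.card_eq_fintype_card, Nat.card_zpowers, hx]
    have h3 : ∑ u : zpowers x, (if u = 1 then (0 : ℂ) else Eta lam (u : G)) = ((p : ℂ) - 1) * Eta lam x := by
      have h4 : ∀ u : zpowers x, (if u = 1 then (0 : ℂ) else Eta lam (u : G)) =
          Eta lam x - if u = 1 then Eta lam x else 0 := by
        intro u
        by_cases hu : u = 1
        · simp [hu]
        · rw [if_neg hu, if_neg hu, sub_zero]
          exact heta _ u.2 fun h => hu (Subtype.ext h)
      rw [Finset.sum_congr rfl fun u _ => h4 u, Finset.sum_sub_distrib, Finset.sum_const, Finset.card_univ, hcard]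
      simp
      ring
    rw [h3] at hsum
    -- integrality
    have hp1 : ((p : ℂ) - 1) ≠ 0 := by
      have : ((p : ℂ) - 1) = ((p - 1 : ℕ) : ℂ) := by
        rw [Nat.cast_sub hp.out.one_le]
        simp
      rw [this]
      have := hp.out.two_le
      exact_mod_cast (by omega : p - 1 ≠ 0)
    set q : ℚ := -(NC x x : ℚ) / ((p : ℚ) - 1) with hq
    have hqc : ((q : ℚ) : ℂ) = Eta lam x := by
      rw [hq]
      push_cast
      rw [eq_comm, eq_div_iff hp1, mul_comm]
      exact hsum
    have hint : IsIntegral ℤ ((q : ℚ) : ℂ) := by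
      rw [hqc]
      exact isIntegral_Eta hx lam x
    have hint2 : IsIntegral ℤ q := by
      have h2 : algebraMap ℚ ℂ q = ((q : ℚ) : ℂ) := rfl
      rw [← h2] at hint
      exact (isIntegral_algebraMap_iff (algebraMap ℚ ℂ).injective).1 hint
    obtain ⟨m, hm⟩ := IsIntegrallyClosed.isIntegral_iff.1 hint2
    have hp1' : ((p : ℚ) - 1) ≠ 0 := by
      have : (2 : ℚ) ≤ p := by exact_mod_cast hp.out.two_le
      intro h
      linarith
    have h5 : (m : ℚ) * ((p : ℚ) - 1) = -(NC x x : ℚ) := by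
      have h6 : algebraMap ℤ ℚ m = (m : ℚ) := rfl
      rw [h6] at hm
      rw [hm, hq]
      field_simp
    have h6 : m * ((p : ℤ) - 1) = -(NC x x : ℤ) := by exact_mod_cast h5
    have h7 := NC_lt (x := x) hx
    have h8 := NC_pos (x := x) (u := x) (mem_zpowers x)
    apply hne
    have h9 : ((p - 1 : ℕ) : ℤ) = (p : ℤ) - 1 := by
      rw [Nat.cast_sub hp.out.one_le]
      simp
    have h10 : (NC x x : ℤ) ≤ (p : ℤ) - 1 := by
      rw [← h9]
      exact_mod_cast h7
    have h11 : (0 : ℤ) < (NC x x : ℤ) := by exact_mod_cast h8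
    have h12 : (0 : ℤ) < (p : ℤ) - 1 := lt_of_lt_of_le h11 h10
    have h13 : (-m) * ((p : ℤ) - 1) = (NC x x : ℤ) := by linarith
    have h14 : 0 < -m := by
      by_contra h15
      have h16 : -m ≤ 0 := not_lt.1 h15
      nlinarith
    have h15 : (p : ℤ) - 1 ≤ (NC x x : ℤ) := by
      rw [← h13]
      nlinarith
    have h16 : (NC x x : ℤ) = ((p - 1 : ℕ) : ℤ) := by
      rw [h9]
      linarith
    exact_mod_cast h16
  -- only the trivial character contributes
  have h1 := sum_W1 (M := M) hM P hc hH hcyc hx hxP hx1 hx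
  have hmem : trivChar G ∈ Finset.univ.filter (· ∈ principalBlock M G) :=
    Finset.mem_filter.2 ⟨Finset.mem_univ _, trivChar_mem_principalBlock⟩
  rw [Finset.sum_eq_single_of_mem _ hmem (fun χ hχ hne => hzero χ hχ hne)] at h1
  have hcard : Fintype.card (zpowers x) = p := by
    rw [← Nat.card_eq_fintype_card, Nat.card_zpowers, hx]
  have h2 : (conj (((trivChar G : IrrCharacter G) : G → ℂ) x) * ((trivChar G : IrrCharacter G) : G → ℂ) x) *
      W (1 : zpowers x →* ℂ) ((trivChar G : IrrCharacter G) : G → ℂ) = (p : ℂ) := by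
    simp only [coe_trivChar, W, MonoidHom.one_apply, map_one, mul_one, one_mul, div_one, Finset.sum_const,
      Finset.card_univ, hcard, nsmul_eq_mul]
  rw [h2] at h1
  have h3 : p = Nat.card P * NC x x := by exact_mod_cast h1
  have h4 : p ∣ Nat.card P := by
    have := orderOf_dvd_natCard (⟨x, hxP⟩ : (P : Subgroup G))
    rwa [Subgroup.orderOf_mk, hx] at this
  obtain ⟨d, hd⟩ := h4
  have h5 : d * NC x x = 1 := by
    have hp0 : 0 < p := hp.out.pos
    rw [hd, mul_assoc] at h3
    exact (Nat.eq_of_mul_eq_mul_left hp0 (by rw [mul_one]; exact h3.symm))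
  exact false_of_NC_one hna P hcyc hx hxP (Nat.eq_one_of_mul_eq_one_left h5)

end Main

end Cfsg.Agent.Lib.CycBS
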